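import Cfsg.Agent.DL.Dat.Sub
import Cfsg.Agent.BpExc.FixRel

/-!
# N2, `BoxSub`, part a: a base and a datum for a set of roots which is closed under its reflections (helper55)

The first section follows `DL/Dat/Base`, the second one `DL/Dat/Sub`.
-/

set_option autoImplicit false
set_option linter.unusedSectionVars false

namespace Cfsg.Agent.N2.Ex.Al.Sb

open CoxeterSystem Cfsg.Agent.ChevalleyStructure.CoxeterGeom Cfsg.Agent.Tits.Roots Cfsg.Agent.Nodes.Reps
  Cfsg.Agent.Nodes.BNOf Cfsg.Agent.Nodes.SubComb Cfsg.Agent.Nodes.Coroot Cfsg.Agent.Nodes.Slope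
open Cfsg.Agent.DL.Base (cpr_mul_lt ne_neg_of_nonneg lab)
open Cfsg.Agent.BpExc.Zc (ZB CommZ ZClosed)
open scoped commutatorElement

section Base

variable {I W : Type} [Fintype I] [DecidableEq I] [Group W] [Finite W] {M : CoxeterMatrix I}
  {cs : CoxeterSystem M W} {A : I → I → ℤ} {h : IsCartan M A}

variable (cs h) in
/-- a symmetric set of roots which is closed under its reflections -/
structure Rs where
  s : Set (I → ℤ)
  root : ∀ a ∈ s, IsRoot cs h a
  neg : ∀ a ∈ s, -a ∈ s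
  rc : ∀ a ∈ s, ∀ b ∈ s, b - cpr cs h b a • a ∈ s

variable (Λ : Rs cs h)

/-- positive roots in `Λ` -/
def PosL (a : I → ℤ) : Prop := a ∈ Λ.s ∧ 0 ≤ a

/-- indecomposable positive roots in `Λ` -/
def Ind (a : I → ℤ) : Prop := PosL Λ a ∧ ∀ b c, PosL Λ b → PosL Λ c → a ≠ b + c

/-- the base -/
def Smp : Type := {a : I → ℤ // Ind Λ a}

theorem finite_Smp : Finite (Smp Λ) :=
  ((RGD.finite_roots (cs := cs) (h := h)).subset (fun _ ha => Λ.root _ ha.1.1 : {a | Ind Λ a} ⊆ _)).to_subtype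

/-- the base is finite -/
@[reducible] noncomputable def fintypeSmp : Fintype (Smp Λ) := @Fintype.ofFinite _ (finite_Smp Λ)

/-- classical decidable equality -/
@[reducible] noncomputable def decSmp : DecidableEq (Smp Λ) := Classical.decEq _

attribute [local instance] fintypeSmp decSmp

/-- the base as a family of vectors -/
def bs (j : Smp Λ) : I → ℤ := j.1

variable {Λ}

theorem bs_mem (j : Smp Λ) : bs Λ j ∈ Λ.s := j.2.1.1

theorem bs_root (j : Smp Λ) : IsRoot cs h (bs Λ j) := Λ.root _ (bs_mem j)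

theorem bs_nonneg (j : Smp Λ) : 0 ≤ bs Λ j := j.2.1.2

theorem bs_injective : Function.Injective (bs Λ) := Subtype.val_injective

theorem sub_mem' {a b : I → ℤ} (ha : a ∈ Λ.s) (hb : b ∈ Λ.s) (h1 : a ≠ b) (h2 : a ≠ -b) (h3 : 0 < cpr cs h a b) :
    a - b ∈ Λ.s := by
  have := Fintype.ofFinite W
  have h4 : 0 < cpr cs h b a := by rwa [cpr_pos_iff _ _ _ (Λ.root a ha), form_comm, ← cpr_pos_iff _ _ _ (Λ.root b hb)]
  have h5 := cpr_mul_lt (Λ.root a ha) (Λ.root b hb) h1 h2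
  by_cases h6 : cpr cs h a b = 1
  · have := Λ.rc b hb a ha
    rwa [h6, one_smul] at this
  · have h7 : cpr cs h b a = 1 := by
      by_contra h8
      have : 2 ≤ cpr cs h a b := by omega
      have : 2 ≤ cpr cs h b a := by omega
      nlinarith
    have := Λ.neg _ (Λ.rc a ha b hb)
    rwa [h7, one_smul, neg_sub] at this

theorem cpr_nonpos {j k : Smp Λ} (hjk : j ≠ k) : cpr cs h (bs Λ j) (bs Λ k) ≤ 0 := by
  by_contra h0
  have h1 := sub_mem' (bs_mem j) (bs_mem k) (bs_injective.ne hjk)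
    (ne_neg_of_nonneg (bs_root j) (bs_nonneg j) (bs_nonneg k)) (not_le.1 h0)
  rcases (Λ.root _ h1).pos_or_neg with h3 | h3
  · exact j.2.2 _ _ ⟨h1, h3⟩ k.2.1 (sub_add_cancel _ _).symm
  · refine k.2.2 _ _ ⟨Λ.neg _ h1, neg_nonneg.2 h3⟩ j.2.1 ?_
    show bs Λ k = -(bs Λ j - bs Λ k) + bs Λ j
    abel

theorem exists_coeff {a : I → ℤ} (ha : PosL Λ a) : ∃ c : Smp Λ → ℤ, 0 ≤ c ∧ iota (bs Λ) c = a := by
  have key : ∀ m : ℕ, ∀ a, PosL Λ a → ht a ≤ m → ∃ c : Smp Λ → ℤ, 0 ≤ c ∧ iota (bs Λ) c = a := by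
    intro m
    induction m with
    | zero => exact fun a ha h0 => absurd (RGD.ht_pos (Λ.root _ ha.1) ha.2) (by omega)
    | succ m ih =>
      intro a ha hm
      by_cases hi : Ind Λ a
      · exact ⟨sr ⟨a, hi⟩, sr_nonneg _, iota_sr _ _⟩
      · have : ∃ b c, PosL Λ b ∧ PosL Λ c ∧ a = b + c := by
          by_contra hcon
          exact hi ⟨ha, fun b c hb hc e => hcon ⟨b, c, hb, hc, e⟩⟩
        obtain ⟨b, c, hb, hc, rfl⟩ := this
        rw [RGD.ht_add] at hm
        have h1 := RGD.ht_pos (Λ.root _ hb.1) hb.2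
        have h2 := RGD.ht_pos (Λ.root _ hc.1) hc.2
        obtain ⟨d, hd, rfl⟩ := ih b hb (by omega)
        obtain ⟨d', hd', rfl⟩ := ih c hc (by omega)
        exact ⟨d + d', add_nonneg hd hd', map_add _ _ _⟩
  exact key (ht a).toNat a ha (Int.self_le_toNat _)

theorem iota_nonneg {c : Smp Λ → ℤ} (hc : 0 ≤ c) : 0 ≤ iota (bs Λ) c := by
  rw [iota_apply]
  exact Finset.sum_nonneg fun j _ => smul_nonneg (hc j) (bs_nonneg j)

theorem eq_zero_of_nonneg {c : Smp Λ → ℤ} (hc : 0 ≤ c) (h0 : iota (bs Λ) c = 0) : c = 0 := by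
  have h1 := congrArg htHom h0
  rw [iota_apply, map_sum, map_zero, Finset.sum_eq_zero_iff_of_nonneg] at h1
  · funext j
    have h2 := h1 j (Finset.mem_univ j)
    rw [map_zsmul, smul_eq_mul, mul_eq_zero] at h2
    exact h2.resolve_right (ht_ne_zero (bs_root j))
  · intro j _
    rw [map_zsmul, smul_eq_mul]
    exact mul_nonneg (hc j) (RGD.ht_pos (bs_root j) (bs_nonneg j)).le

theorem indep (c : Smp Λ → ℤ) (h0 : iota (bs Λ) c = 0) : c = 0 := by
  have := Fintype.ofFinite W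
  have h1 : iota (bs Λ) c⁺ = iota (bs Λ) c⁻ := by
    rw [← sub_eq_zero, ← map_sub, posPart_sub_negPart, h0]
  have h2 : form cs h (iota (bs Λ) c⁺) (iota (bs Λ) c⁻) ≤ 0 := by
    let f : (I → ℤ) → (I → ℤ) →+ ℤ := fun v => AddMonoidHom.mk' (form cs h v) (form_add_right cs h v)
    have hf : ∀ v x, form cs h v x = f v x := fun _ _ => rfl
    rw [iota_apply _ c⁻, hf, map_sum]
    refine Finset.sum_nonpos fun k _ => ?_
    rw [map_zsmul, ← hf, form_comm, iota_apply, hf, map_sum, Finset.smul_sum]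
    refine Finset.sum_nonpos fun j _ => ?_
    rw [map_zsmul, ← hf, smul_eq_mul, smul_eq_mul, ← mul_assoc]
    by_cases hjk : k = j
    · subst hjk
      have : c⁻ k * c⁺ k = 0 := by
        show (c k)⁻ * (c k)⁺ = 0
        rcases le_total 0 (c k) with h3 | h3
        · rw [negPart_eq_zero.2 h3, zero_mul]
        · rw [posPart_eq_zero.2 h3, mul_zero]
      rw [this, zero_mul]
    · refine mul_nonpos_of_nonneg_of_nonpos (mul_nonneg (negPart_nonneg c k) (posPart_nonneg c j)) ?_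
      rw [← not_lt, ← cpr_pos_iff _ _ _ (bs_root j), not_lt]
      exact cpr_nonpos hjk
  have h3 : iota (bs Λ) c⁻ = 0 := by
    by_contra h4
    rw [h1] at h2
    exact absurd (form_pos cs h h4) (not_lt.2 h2)
  rw [← posPart_sub_negPart c, eq_zero_of_nonneg (negPart_nonneg c) h3,
    eq_zero_of_nonneg (posPart_nonneg c) (h1.trans h3), sub_zero]

variable (Λ)

/-- the Cartan matrix of the base -/
noncomputable def car (j k : Smp Λ) : ℤ := cpr cs h (bs Λ k) (bs Λ j)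

/-- the Coxeter matrix of the base -/
noncomputable def cox : CoxeterMatrix (Smp Λ) where
  M := Matrix.of fun j k => if j = k then 1 else lab (car Λ j k * car Λ k j)
  isSymm := by
    ext j k
    rw [Matrix.transpose_apply, Matrix.of_apply, Matrix.of_apply, mul_comm]
    exact if_congr eq_comm rfl rfl
  diagonal j := by rw [Matrix.of_apply, if_pos rfl]
  off_diagonal j k hjk := by
    rw [Matrix.of_apply, if_neg hjk, lab]
    split_ifs <;> decide

theorem isCartan : IsCartan (cox Λ) (car Λ) where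
  diag j := cpr_self cs h (bs_root j)
  rel j k hjk := by
    have h1 : car Λ j k ≤ 0 := cpr_nonpos (Ne.symm hjk)
    have h2 : car Λ k j ≤ 0 := cpr_nonpos hjk
    have h3 : car Λ k j * car Λ j k < 4 := cpr_mul_lt (bs_root j) (bs_root k) (bs_injective.ne hjk)
      (ne_neg_of_nonneg (bs_root j) (bs_nonneg j) (bs_nonneg k))
    have h4 : car Λ k j = 0 ↔ car Λ j k = 0 := cpr_zero_comm cs h (bs_root j) (bs_root k)
    have h5 : cox Λ j k = lab (car Λ j k * car Λ k j) := if_neg hjk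
    rw [h5]
    generalize car Λ j k = a at *
    generalize car Λ k j = b at *
    by_cases ha : a = 0
    · have hb := h4.2 ha
      subst ha hb
      decide
    · have hb : b ≠ 0 := fun hb => ha (h4.1 hb)
      have ha' : -4 < a := by nlinarith [lt_of_le_of_ne h2 hb]
      have hb' : -4 < b := by nlinarith [lt_of_le_of_ne h1 ha]
      interval_cases a <;> interval_cases b <;> first | decide | omega

/-- the Weyl group element carrying a simple root to `bs j` -/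
noncomputable def bw (j : Smp Λ) : W := (bs_root j).choose

/-- the simple root conjugate to `bs j` -/
noncomputable def bi (j : Smp Λ) : I := (bs_root j).choose_spec.choose

theorem bs_eq (j : Smp Λ) : bs Λ j = rep cs h (bw Λ j) (sr (bi Λ j)) :=
  (bs_root j).choose_spec.choose_spec

theorem subSys : SubSys cs h (car Λ) (bs Λ) (bw Λ) (bi Λ) where
  eq := bs_eq Λ
  cartan j k := by rw [← cpr_rep_sr, ← bs_eq]; rfl
  indep := indep

/-- the Coxeter system of the base -/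
noncomputable abbrev sys : CoxeterSystem (cox Λ) (cox Λ).Group := (cox Λ).toCoxeterSystem

theorem finite_group : Finite (cox Λ).Group := (subSys Λ).finite (sys Λ) (isCartan Λ)

variable {Λ}

theorem exists_iota {a : I → ℤ} (ha : a ∈ Λ.s) : ∃ c : Smp Λ → ℤ, (0 ≤ c ∨ c ≤ 0) ∧ iota (bs Λ) c = a := by
  rcases (Λ.root a ha).pos_or_neg with h0 | h0
  · obtain ⟨c, h1, h2⟩ := exists_coeff ⟨ha, h0⟩
    exact ⟨c, Or.inl h1, h2⟩
  · obtain ⟨c, h1, h2⟩ := exists_coeff ⟨Λ.neg a ha, neg_nonneg.2 h0⟩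
    exact ⟨-c, Or.inr (neg_nonpos.2 h1), by rw [map_neg, h2, neg_neg]⟩

theorem hbase (c : Smp Λ → ℤ) (hc : iota (bs Λ) c ∈ Λ.s) : 0 ≤ c ∨ c ≤ 0 := by
  obtain ⟨d, h1, h2⟩ := exists_iota hc
  rwa [(subSys Λ).iota_injective h2] at h1

theorem simple_mem (j : Smp Λ) {c : Smp Λ → ℤ} (hc : iota (bs Λ) c ∈ Λ.s) :
    iota (bs Λ) (rep (sys Λ) (isCartan Λ) ((sys Λ).simple j) c) ∈ Λ.s := by
  rw [← (subSys Λ).rep_simple_iota (sys Λ) (isCartan Λ), rep_rfl'_eq, ← bs_eq]
  exact Λ.rc _ (bs_mem j) _ hc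

theorem mem_of_isRoot {c : Smp Λ → ℤ} (hc : IsRoot (sys Λ) (isCartan Λ) c) : iota (bs Λ) c ∈ Λ.s := by
  obtain ⟨v, j, rfl⟩ := hc
  induction v using (sys Λ).simple_induction_left with
  | one =>
    rw [map_one, Module.End.one_apply, iota_sr]
    exact bs_mem j
  | mul_simple_left v i ih =>
    rw [rep_mul_apply]
    exact simple_mem i ih

theorem isRoot_of_mem {c : Smp Λ → ℤ} (hc : iota (bs Λ) c ∈ Λ.s) : IsRoot (sys Λ) (isCartan Λ) c := by
  have := Fintype.ofFinite W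
  have main : ∀ N : ℕ, ∀ c : Smp Λ → ℤ, (ht c).toNat = N → 0 ≤ c → iota (bs Λ) c ∈ Λ.s →
      IsRoot (sys Λ) (isCartan Λ) c := by
    intro N
    induction N using Nat.strong_induction_on with
    | _ N ih =>
    intro c hN h0 hc
    have hform : 0 < form cs h (iota (bs Λ) c) (iota (bs Λ) c) := form_pos cs h (Λ.root _ hc).ne_zero
    have hsum : form cs h (iota (bs Λ) c) (iota (bs Λ) c) = ∑ j, c j * form cs h (iota (bs Λ) c) (bs Λ j) := by
      conv_lhs => rhs; rw [iota_apply]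
      exact (map_sum (AddMonoidHom.mk' (form cs h _) (form_add_right cs h _)) _ _).trans
        (Finset.sum_congr rfl fun j _ => form_smul_right cs h _ _ _)
    rw [hsum] at hform
    obtain ⟨j, -, hj⟩ := Finset.exists_lt_of_sum_lt (f := fun _ => (0 : ℤ)) (by simpa using hform)
    have hcj : 0 < c j := by
      by_contra hcon
      have h1 : c j = 0 := le_antisymm (not_lt.1 hcon) (h0 j)
      rw [h1, zero_mul] at hj
      exact lt_irrefl _ hj
    have hfj : 0 < form cs h (iota (bs Λ) c) (bs Λ j) := by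
      by_contra hcon
      exact absurd hj (not_lt.2 (mul_nonpos_of_nonneg_of_nonpos hcj.le (not_lt.1 hcon)))
    have hp : 0 < pairing (car Λ) j c := by
      rw [← (subSys Λ).fn_iota, fn_apply, ← cpr_rep_sr, ← bs_eq, cpr_pos_iff _ _ _ (bs_root j)]
      exact hfj
    by_cases hk : ∀ k, k ≠ j → c k = 0
    · have hcs : c = c j • sr j := by
        funext k
        by_cases hkj : k = j
        · subst hkj; rw [Pi.smul_apply, sr_self, smul_eq_mul, mul_one]
        · rw [Pi.smul_apply, sr_ne hkj, smul_zero, hk k hkj]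
      have h1 : iota (bs Λ) c = c j • bs Λ j := by
        conv_lhs => rw [hcs]
        rw [map_smul, iota_sr]
      have h2 := isUnit_of_smul cs h (Λ.root _ hc) _ h1
      rcases Int.isUnit_iff.1 h2 with h3 | h3
      · rw [hcs, h3, one_smul]; exact isRoot_sr _ _ j
      · omega
    · push Not at hk
      obtain ⟨k, hkj, hk0⟩ := hk
      have hroot := simple_mem j hc
      set c' : Smp Λ → ℤ := rep (sys Λ) (isCartan Λ) ((sys Λ).simple j) c with hc'
      have hc'k : c' k = c k := by rw [hc', rep_simple_apply _ _ j c k hkj]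
      have h0' : 0 ≤ c' := (hbase c' hroot).resolve_right fun h1 => hk0 (le_antisymm (hc'k ▸ h1 k) (h0 k))
      have hht : ht c' = ht c - pairing (car Λ) j c := by rw [hc', ht_simple]
      have hpos : 0 ≤ ht c' := Finset.sum_nonneg fun m _ => h0' m
      have hr := ih (ht c').toNat (by omega) c' rfl h0' hroot
      have h1 : c = rep (sys Λ) (isCartan Λ) ((sys Λ).simple j) c' := by
        rw [hc', ← rep_mul_apply, simple_mul_simple_self, map_one, Module.End.one_apply]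
      rw [h1]
      exact hr.act _
  rcases hbase c hc with h0 | h0
  · exact main _ c rfl h0 hc
  · have h1 := (main _ (-c) rfl (neg_nonneg.2 h0) (by rw [map_neg]; exact Λ.neg _ hc)).neg
    rwa [neg_neg] at h1

theorem exists_root {a : I → ℤ} (ha : a ∈ Λ.s) : ∃ c, IsRoot (sys Λ) (isCartan Λ) c ∧ iota (bs Λ) c = a := by
  obtain ⟨c, -, rfl⟩ := exists_iota ha
  exact ⟨c, isRoot_of_mem ha, rfl⟩

theorem iota_roots : iota (bs Λ) '' {c | IsRoot (sys Λ) (isCartan Λ) c} = Λ.s :=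
  Set.ext fun _ => ⟨fun ⟨_, hc, e⟩ => e ▸ mem_of_isRoot hc, exists_root⟩

theorem zclosed (a b : I → ℤ) : ZClosed cs h {z | ZB cs h a b z} := by
  refine ⟨fun _ hx => hx.1, ?_⟩
  rintro _ ⟨-, i, j, hi, hj, rfl⟩ _ ⟨-, i', j', hi', hj', rfl⟩ z ⟨hz, m, n, hm, hn, rfl⟩
  exact ⟨hz, m * i + n * i', m * j + n * j', by positivity, by positivity, by module⟩

theorem le_normalizer {Y : Type} [Group Y] {X : (I → ℤ) → Subgroup Y} (hZ : CommZ cs h X) {x : I → ℤ} {S : Set (I → ℤ)}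
    (hx : IsRoot cs h x) (hS : ∀ y ∈ S, IsRoot cs h y ∧ x ≠ y ∧ x ≠ -y ∧ ∀ z, ZB cs h x y z → z ∈ S) :
    X x ≤ Subgroup.normalizer (RGD.Sup X S : Set Y) := by
  have key : ∀ a ∈ X x, cj a (RGD.Sup X S) ≤ RGD.Sup X S := by
    intro a ha
    rw [RGD.cj_Sup]
    refine iSup_le ?_
    rintro ⟨y, hy⟩ b hb
    obtain ⟨hyr, hxy, hxy', hz⟩ := hS y hy
    rw [mem_cj] at hb
    have h2 : b = ⁅a, a⁻¹ * b * a⁆ * (a⁻¹ * b * a) := by
      rw [commutatorElement_def]; group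
    rw [h2]
    exact mul_mem (RGD.Sup_mono (S := {z | ZB cs h x y z}) (S' := S) hz (hZ x y hx hyr hxy hxy' a ha _ hb))
      (RGD.le_Sup hy hb)
  intro a ha
  rw [mem_normalizer_iff_cj]
  apply le_antisymm (key a ha)
  have h2 := cj_mono a (key a⁻¹ (inv_mem ha))
  rwa [cj_cj_inv] at h2

end Base

open Cfsg.Agent.DL Cfsg.Agent.Nodes.Bruhat Cfsg.Agent.Nodes.OppDec

variable {p : ℕ} [Fact p.Prime] {k : Type} [Field k] [CharP k p] {Y : Type} [Group Y] {N : Type} [Fintype N]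
  [DecidableEq N] {ρ : Y →* GL N k} {F : MulAut Y} {G : Subgroup Y} (D : Datum p ρ F G)

attribute [local instance] fintypeSmp decSmp

/-- ordered products for integrally closed sets -/
theorem exists_lp (hZ : CommZ D.cs D.h D.X) (lam : (D.I → ℤ) →+ ℤ) : ∀ {L : List (D.I → ℤ)}, Conv L →
    (∀ a ∈ L, D.Rt a ∧ 0 < lam a) → ∀ {S : Set (D.I → ℤ)}, ZClosed D.cs D.h S → (∀ a ∈ S, a ∈ L) → ∀ {u : Y}, u ∈ D.S S →
      ∃ c : (D.I → ℤ) → k, (∀ a, a ∉ S → c a = 0) ∧ u = D.lp L c := by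
  intro L
  induction L with
  | nil =>
    intro _ _ S _ hS u hu
    have : S = ∅ := Set.eq_empty_of_forall_notMem fun a ha => by simpa using hS a ha
    rw [this, Datum.S, Sup_empty, Subgroup.mem_bot] at hu
    exact ⟨0, fun _ _ => rfl, hu⟩
  | cons r L ih =>
    classical
    rintro ⟨⟨f, hf0, hf⟩, hL⟩ hr S hcl hS u hu
    have hr0 := hr r List.mem_cons_self
    have hr' : ∀ a ∈ L, D.Rt a ∧ 0 < lam a := fun a ha => hr a (List.mem_cons_of_mem _ ha)
    have hrL : r ∉ L := fun h => (hf r h).ne' hf0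
    have h1 : ∀ a ∈ {x | x ∈ S ∧ 0 < f x}, a ∈ L := fun a ha =>
      (List.mem_cons.1 (hS a ha.1)).resolve_left fun e => ha.2.ne' (e ▸ hf0)
    by_cases hrS : r ∈ S
    · have h2 : D.X r ≤ Subgroup.normalizer (D.S {x | x ∈ S ∧ 0 < f x} : Set Y) :=
        le_normalizer hZ hr0.1 fun y hy => ⟨hcl.root y hy.1, fun e => hrL (e ▸ h1 y hy), fun e => by
          have k1 := hr0.2
          have k2 := (hr' y (h1 y hy)).2
          rw [e, map_neg] at k1
          omega, fun z hz => ⟨hcl.btw r hrS y hy.1 z hz, hz.symm.pos f hy.2 hf0.ge⟩⟩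
      have h3 : D.S S ≤ D.X r ⊔ D.S {x | x ∈ S ∧ 0 < f x} := RGD.Sup_le fun z hz => by
        rcases List.mem_cons.1 (hS z hz) with rfl | e
        · exact le_sup_left
        · exact le_sup_of_le_right (RGD.le_Sup (S := {x | x ∈ S ∧ 0 < f x}) ⟨hz, hf z e⟩)
      obtain ⟨v, hv, u', hu', rfl⟩ := (Subgroup.coe_mul_of_left_le_normalizer_right _ _ h2).subset (h3 hu)
      obtain ⟨c, hc0, rfl⟩ := ih hL hr' (hcl.pos f) h1 hu'
      obtain ⟨t, rfl⟩ := (D.mem_X r hr0.1 _).1 hv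
      refine ⟨Function.update c r t, fun x hx => ?_, ?_⟩
      · rw [Function.update_of_ne (fun h : x = r => hx (h ▸ hrS))]
        exact hc0 x fun h => hx h.1
      · rw [D.lp_cons, Function.update_self]
        exact congrArg _ (D.lp_congr fun x hx => (Function.update_of_ne (fun h : x = r => hrL (h ▸ hx)) _ _).symm)
    · obtain ⟨c, hc0, rfl⟩ := ih hL hr' hcl (fun a ha => (List.mem_cons.1 (hS a ha)).resolve_left fun e => hrS (e ▸ ha)) hu
      exact ⟨c, hc0, by rw [D.lp_cons, hc0 r hrS, D.x_zero hr0.1, one_mul]⟩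

/-- the integral commutator relations at the finite levels -/
theorem commZ_lev (hZ : CommZ D.cs D.h D.X) {d e : ℕ} (H : D.Split d e) : CommZ D.cs D.h (D.Xe e) := by
  intro a b ha hb h1 h2 u hu v hv
  obtain ⟨lam, k1, k2⟩ := DL.Base.exists_pos_pair ha hb h1 h2
  have k3 : ∀ z ∈ {z | ZB D.cs D.h a b z}, 0 < lam z := fun z hz => ZB.pos hz lam k1 k2.le
  obtain ⟨L, hL, k4⟩ := exists_conv (cs := D.cs) (h := D.h) (fun z hz => (zclosed a b).root z hz) lam k3
  have k5 : ∀ z ∈ L, D.Rt z ∧ 0 < lam z := fun z hz => ⟨((k4 z).1 hz).1, k3 z ((k4 z).1 hz)⟩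
  obtain ⟨c, -, e1⟩ := exists_lp D hZ lam hL k5 (zclosed a b) (fun z hz => (k4 z).2 hz) (hZ a b ha hb h1 h2 u hu.1 v hv.1)
  have k6 : ⁅u, v⁆ ∈ fix (F ^ d) := by
    rw [H.fix_eq]
    have k7 : u ∈ lev p ρ e := hu.2
    have k8 : v ∈ lev p ρ e := hv.2
    exact mul_mem (mul_mem (mul_mem k7 k8) (inv_mem k7)) (inv_mem k8)
  rw [e1, mem_fix, H.lp fun z hz => (k5 z hz).1] at k6
  rw [e1]
  exact D.lp_mem (fun z hz => (k5 z hz).1) fun z hz _ => RGD.le_Sup (X := D.Xe e) ((k4 z).1 hz)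
    ⟨D.x_mem (k5 z hz).1 _, (H.x_mem_lev (k5 z hz).1).2 (D.lp_inj lam hL k5 k6 z hz)⟩

variable [IsAlgClosed k] {D} (Λ : Rs D.cs D.h)

/-- representatives -/
noncomputable def br (j : Smp Λ) : Y := (D.exists_rp (bw Λ j)).choose

theorem br_spec (j : Smp Λ) : D.Rp (bw Λ j) (br Λ j) ∧ br Λ j ∈ Subgroup.closure (Set.range D.n) :=
  (D.exists_rp (bw Λ j)).choose_spec

theorem rp_bn (j : Smp Λ) : D.Rp (D.rf (bs Λ j)) (br Λ j * D.n (bi Λ j) * (br Λ j)⁻¹) := by
  rw [bs_eq, D.rf_act]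
  exact ((br_spec Λ j).1.mul (rp_simple _ _ _)).mul (br_spec Λ j).1.inv

theorem Sup_io (A : Set (Smp Λ → ℤ)) : RGD.Sup (fun c => D.X (iota (bs Λ) c)) A = D.S (iota (bs Λ) '' A) := by
  apply le_antisymm
  · exact RGD.Sup_le fun a ha => RGD.le_Sup (S := iota (bs Λ) '' A) ⟨a, ha, rfl⟩
  · refine RGD.Sup_le ?_
    rintro _ ⟨a, ha, rfl⟩
    exact RGD.le_Sup (X := fun c => D.X (iota (bs Λ) c)) ha

/-- the commutators stay inside -/
def Cm : Prop := ∀ a ∈ Λ.s, ∀ b ∈ Λ.s, a ≠ b → a ≠ -b →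
  (∀ u ∈ D.X a, ∀ v ∈ D.X b, u * v = v * u) ∨ ∀ z, ZB D.cs D.h a b z → z ∈ Λ.s

variable {Λ}

theorem rgd (hZ : CommZ D.cs D.h D.X) (hc : Cm Λ) {d e : ℕ} (H : D.Split d e) :
    RGD (sys Λ) (isCartan Λ) p (D.Te e) (fun j => br Λ j * D.n (bi Λ j) * (br Λ j)⁻¹)
      (fun c => D.X (iota (bs Λ) c) ⊓ lev p ρ e) := by
  refine Nodes.Sub.rgd_sub (cs' := sys Λ) (h' := isCartan Λ) H.rgd (subSys Λ) (fun c c' hc1 hc2 h1 h2 u hu v hv => ?_)
    (g := br Λ) fun j => D.rp_lev H.e_pos H.dvd (br_spec Λ j).1 (H.fix_eq ▸ H.closure_n_le (br_spec Λ j).2)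
  have ha := mem_of_isRoot hc1
  have hb := mem_of_isRoot hc2
  have h1' := (subSys Λ).iota_injective.ne h1
  have h2' : iota (bs Λ) c ≠ -iota (bs Λ) c' := by rw [← map_neg]; exact (subSys Λ).iota_injective.ne h2
  rcases hc _ ha _ hb h1' h2' with k | k
  · rw [commutatorElement_eq_one_iff_mul_comm.2 (k u hu.1 v hv.1)]
    exact one_mem _
  · refine (RGD.Sup_le fun z hz => ?_ : RGD.Sup (D.Xe e) _ ≤ _)
      (commZ_lev D hZ H _ _ (Λ.root _ ha) (Λ.root _ hb) h1' h2' u hu v hv)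
    obtain ⟨b, hb, rfl⟩ := exists_root (k z hz)
    obtain ⟨-, i, j, hi, hj, e1⟩ := hz
    rw [← map_zsmul, ← map_zsmul, ← map_add] at e1
    exact le_btw (X := fun c => D.Xe e (iota (bs Λ) c)) hb hi hj ((subSys Λ).iota_injective e1)

theorem io_invFun (hF : ∀ a ∈ Λ.s, D.g a ∈ Λ.s) {c : Smp Λ → ℤ} (hc : IsRoot (sys Λ) (isCartan Λ) c) :
    iota (bs Λ) (Function.invFun (iota (bs Λ)) (D.g (iota (bs Λ) c))) = D.g (iota (bs Λ) c) := by
  obtain ⟨b, -, hb⟩ := exists_root (hF _ (mem_of_isRoot hc))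
  exact Function.invFun_eq ⟨b, hb⟩

/-- **the datum of the subsystem subgroup** -/
@[reducible] noncomputable def sub (hZ : CommZ D.cs D.h D.X) (hc : Cm Λ) (hF : ∀ a ∈ Λ.s, D.g a ∈ Λ.s) :
    Datum p ρ F (D.T ⊔ D.S Λ.s) where
  amb := D.amb
  I := Smp Λ
  W := (cox Λ).Group
  fW := finite_group Λ
  M := cox Λ
  cs := sys Λ
  A := car Λ
  h := isCartan Λ
  R := D.R
  τ := D.τ
  τ_inj := D.τ_inj
  T := D.T
  mem_T := D.mem_T
  X c := D.X (iota (bs Λ) c)
  x c := D.x (iota (bs Λ) c)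
  mem_X c hc := D.mem_X _ (Λ.root _ (mem_of_isRoot hc))
  x_inj c hc := D.x_inj _ (Λ.root _ (mem_of_isRoot hc))
  x_add c hc := D.x_add _ (Λ.root _ (mem_of_isRoot hc))
  n j := br Λ j * D.n (bi Λ j) * (br Λ j)⁻¹
  wt := D.wt.comp (iota (bs Λ)).toAddMonoidHom
  cw j := D.cor (bs Λ j)
  pair j c := by
    refine (D.pair_cor (bs_root j) _).trans ?_
    rw [← (subSys Λ).fn_iota, fn_apply, ← cpr_rep_sr, ← bs_eq]
    rfl
  tor c hc := D.tor _ (Λ.root _ (mem_of_isRoot hc))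
  refl j c := by
    rw [D.conj_τ_rf (bs_root j) (rp_bn Λ j)]
    show _ = D.τ (c * (coch _ (chr (D.wt (iota (bs Λ) (sr j))) c))⁻¹)
    rw [iota_sr]
  rgd := by
    obtain ⟨d, e, H⟩ := D.exists_split'
    exact ⟨e, H.e_pos, fun m hm => rgd hZ hc (H.mul hm)⟩
  G_eq := by rw [GG, Sup_io, iota_roots]
  polyx c hc := D.polyx _ (Λ.root _ (mem_of_isRoot hc))
  diag := D.diag
  g c := Function.invFun (iota (bs Λ)) (D.g (iota (bs Λ) c))
  ex c := D.ex (iota (bs Λ) c)
  g_root c hc := isRoot_of_mem (by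
    rw [io_invFun hF hc]
    exact hF _ (mem_of_isRoot hc))
  F_x c hc := by
    rw [io_invFun hF hc]
    exact D.F_x _ (Λ.root _ (mem_of_isRoot hc))
  Mx := D.Mx
  F_τ := D.F_τ

theorem ncard_sub (hZ : CommZ D.cs D.h D.X) (hc : Cm Λ) (hF : ∀ a ∈ Λ.s, D.g a ∈ Λ.s) :
    {a | (sub hZ hc hF).Rt a}.ncard = Λ.s.ncard :=
  (Set.ncard_image_of_injective _ (subSys Λ).iota_injective).symm.trans (congrArg Set.ncard iota_roots)

end Cfsg.Agent.N2.Ex.Al.Sb
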